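import Cfsg.Agent.H64.Subfield.Field
import Cfsg.Agent.H46.Mem

/-!
# The field of parameters in type `B₂`
-/

set_option autoImplicit false

namespace Cfsg.Agent.H64.Subfield.B2

open Cfsg.Lie Cfsg.Agent.H46
open scoped Matrix MatrixGroups

local notation "G₂'" => goodB2

theorem b2tab : (commT tabB2 4 5 = [(6, 1, 1, 1), (7, -1, 1, 2)]) ∧ (commT tabB2 5 4 = [(6, -1, 1, 1), (7, -1, 2, 1)]) ∧
    (commT tabB2 5 6 = [(7, 2, 1, 1)]) ∧ (commT tabB2 6 5 = [(7, -2, 1, 1)]) ∧ (commT tabB2 4 6 = []) ∧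
    (commT tabB2 7 2 = [(6, -1, 1, 1), (4, -1, 1, 2)]) ∧ (commT tabB2 6 3 = [(5, -1, 1, 1), (7, 1, 2, 1)]) ∧
    (commT tabB2 7 3 = []) := by
  refine ⟨?_, ?_, ?_, ?_, ?_, ?_, ?_, ?_⟩ <;> decide +kernel

theorem b2refl : chevB2.simple 0 = 5 ∧ chevB2.simple 1 = 4 ∧ chevB2.reflectRoot 0 6 = 6 ∧
    chevB2.reflectRoot 0 7 = 4 ∧ chevB2.reflectRoot 1 6 = 5 ∧ chevB2.reflectRoot 1 7 = 7 ∧
    chevB2.neg 4 = 3 ∧ chevB2.neg 5 = 2 ∧ chevB2.neg 6 = 1 ∧ chevB2.neg 7 = 0 ∧ chevB2.nroots = 8 ∧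
    chevB2.rank = 2 := by decide +kernel

variable {k : Type*} [Field k]

theorem pos4 : chevB2.IsPosRoot 4 := by decide +kernel
theorem pos5 : chevB2.IsPosRoot 5 := by decide +kernel
theorem pos6 : chevB2.IsPosRoot 6 := by decide +kernel
theorem pos7 : chevB2.IsPosRoot 7 := by decide +kernel

theorem ct {r s : ℕ} (hr : r < 8) (hs : s < 8) : chevB2.commTerms r s = commT tabB2 r s :=
  commT_eq goodB2 (by rw [b2refl.2.2.2.2.2.2.2.2.2.2.1]; exact hr) (by rw [b2refl.2.2.2.2.2.2.2.2.2.2.1]; exact hs)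

theorem up8 : up goodB2 k 8 = ⊥ := up_eq_bot goodB2 (by rw [b2refl.2.2.2.2.2.2.2.2.2.2.1])

variable (O : Over goodB2 k) (T : Ty goodB2) (hs0 : T.s0 = 6)

theorem hi7 : hi chevB2 = 7 := by decide +kernel

theorem lead7_of {w : GL chevB2.Idx k} (hw : w ∈ up goodB2 k 8) : w = 1 := by
  rwa [up8, Subgroup.mem_bot] at hw

/-- The element `x_6(t) x_4(t)` obtained from a normalising `x_7(t)`. -/
theorem conj7 {t : k} (hN : O.Nor (goodB2.xg 7 t)) : goodB2.xg 6 t * goodB2.xg 4 t ∈ O.M := by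
  have h2 : (2 : ℕ) < chevB2.nroots := by decide +kernel
  have e := xg_comm_word goodB2 (r := 7) (s := 2) pos7.1 h2 (by decide) (by decide +kernel) t (1 : k)
  rw [ct (by norm_num) (by norm_num), b2tab.2.2.2.2.2.1] at e
  simp only [List.map_cons, List.map_nil, List.prod_cons, List.prod_nil, mul_one, pow_one, one_pow, Int.cast_neg,
    Int.cast_one, neg_mul, one_mul, _root_.neg_neg] at e
  set W := goodB2.xg 6 t * goodB2.xg 4 t with hW
  have hc : Commute (goodB2.xg 7 t) W :=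
    (xg_commute goodB2 pos7.1 pos6.1 (by decide) (by decide +kernel) (by decide +kernel) t t).mul_right
      (xg_commute goodB2 pos7.1 pos4.1 (by decide) (by decide +kernel) (by decide +kernel) t t)
  have h := mul_mem (inv_mem (hN.2 2 h2)) (O.one_mem 2 h2)
  have : (goodB2.xg 7 t * goodB2.xg 2 1 * (goodB2.xg 7 t)⁻¹)⁻¹ * goodB2.xg 2 1 = W := by
    calc _ = goodB2.xg 7 t * (goodB2.xg 7 t * goodB2.xg 2 1)⁻¹ * (goodB2.xg 2 1 * goodB2.xg 7 t) *
          (goodB2.xg 7 t)⁻¹ := by group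
      _ = goodB2.xg 7 t * W * (goodB2.xg 7 t)⁻¹ := by rw [e]; group
      _ = W := by rw [hc.eq, mul_inv_cancel_right]
  rwa [this] at h

/-- The step from the simple roots to `6`. -/
theorem lead_simple (h6 : O.Leads O.par 6) :
    (∀ t, ∀ w ∈ up goodB2 k 5, O.Nor (goodB2.xg 4 t * w) → t ∈ O.par 6) ∧
    (∀ t, ∀ w ∈ up goodB2 k 6, O.Nor (goodB2.xg 5 t * w) → t ∈ O.par 6) := by
  refine ⟨fun t w hw hN => ?_, fun t w hw hN => ?_⟩
  · obtain ⟨w', hw', e⟩ := comm_lead goodB2 pos4 pos5 (by decide)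
      (show chevB2.commTerms 4 5 = (6, 1, 1, 1) :: [(7, -1, 1, 2)] by rw [ct (by norm_num) (by norm_num)]; exact b2tab.1)
      (by simp) t 1 hw
    have hM := hN.comm_mem pos5.1
    rw [e] at hM
    have := h6 _ w' hw' (O.nor_of_mem (mul_mem (goodB2.xg_mem_pos pos6 _) (up_le goodB2 _ hw')) hM)
    simpa using this
  · obtain ⟨w', hw', e⟩ := comm_lead goodB2 pos5 pos4 (by decide)
      (show chevB2.commTerms 5 4 = (6, -1, 1, 1) :: [(7, -1, 2, 1)] by
        rw [ct (by norm_num) (by norm_num)]; exact b2tab.2.1) (by simp) t 1 hw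
    have hM := hN.comm_mem pos4.1
    rw [e] at hM
    have := h6 _ w' hw' (O.nor_of_mem (mul_mem (goodB2.xg_mem_pos pos6 _) (up_le goodB2 _ hw')) hM)
    simpa using this

include T hs0

theorem par4 : O.par 4 = O.par 7 := by
  have h : O.par (hi chevB2) = O.par 4 := by
    rw [hi7]
    have := O.par_reflect (i := 0) (r := 7) (by decide +kernel) pos7.1
    rw [b2refl.2.2.2.1] at this
    exact this.symm
  rw [← h, hi7]

theorem par5 : O.par 5 = O.par 6 := by
  have := O.par_reflect (i := 1) (r := 6) (by decide +kernel) pos6.1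
  rwa [b2refl.2.2.2.2.1] at this

theorem pos_cases {r : ℕ} (hr : chevB2.IsPosRoot r) : r = 4 ∨ r = 5 ∨ r = 6 ∨ r = 7 := by
  have h := goodB2.isPosRoot_iff.1 hr
  rw [b2refl.2.2.2.2.2.2.2.2.2.2.1] at h
  omega

/-- Assemble the parameter field from the leading parameters. -/
theorem assemble (K : Subfield k) (hK7 : ∀ t, t ∈ O.par 7 ↔ t ∈ K) (hK6 : ∀ t, t ∈ O.par 6 ↔ t ∈ K)
    (l6 : O.Leads O.par 6) (l7 : O.Leads O.par 7) : Nonempty (Rat O) := by
  haveI : Finite (O.par 7) := O.finite_par pos7.1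
  have hfin : Finite K := Finite.of_equiv _ (Equiv.subtypeEquivRight hK7)
  refine ⟨⟨K, hfin, fun r hr t ht => ?_, fun r hr t w hw hN => ?_⟩⟩
  · by_cases h : Long chevB2 r
    · rw [← Over.mem_par, T.par_long O hr h, hi7]; exact (hK7 t).2 ht
    · rw [← Over.mem_par, T.par_short O hr h, hs0]; exact (hK6 t).2 ht
  · obtain ⟨h4, h5⟩ := lead_simple O l6
    rcases pos_cases T hs0 hr with rfl | rfl | rfl | rfl
    · exact (hK6 t).1 (h4 t w hw hN)
    · exact (hK6 t).1 (h5 t w hw hN)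
    · exact (hK6 t).1 (l6 t w hw hN)
    · exact (hK7 t).1 (l7 t w hw hN)

theorem rat_odd {p : ℕ} [hp : Fact p.Prime] [CharP k p] (h2 : p ≠ 2) : Nonempty (Rat O) := by
  have hd : ¬ (p : ℤ) ∣ 2 := fun h => h2
    ((Nat.prime_dvd_prime_iff_eq hp.out Nat.prime_two).1 (by exact_mod_cast h))
  have ne45 : (5 : ℕ) ≠ 4 := by decide
  have l6 : O.Leads O.par 6 := by
    intro t w hw hN
    obtain ⟨w', hw', e⟩ := comm_lead goodB2 pos6 pos5 (by decide)
      (show chevB2.commTerms 6 5 = (7, -2, 1, 1) :: [] by rw [ct (by norm_num) (by norm_num)]; exact b2tab.2.2.2.1)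
      (by simp) t 1 hw
    have hM := hN.comm_mem pos5.1
    rw [e, lead7_of hw', mul_one, ← Over.mem_par] at hM
    have ht : t ∈ O.par 7 := by
      refine mem_of_mul_mem (p := p) _ hd ?_
      simpa using hM
    -- long parameters are short parameters
    have hw2 := O.word_mem (r := 4) (s := 5) pos4.1 pos5.1 (by decide) (by decide +kernel) (t := t) (u := 1)
      (by rwa [par4 O T hs0]) (O.one_mem_par pos5.1)
    rw [ct (by norm_num) (by norm_num), b2tab.1] at hw2
    simp only [List.map_cons, List.map_nil, List.prod_cons, List.prod_nil, mul_one, pow_one, one_pow, Int.cast_neg,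
      Int.cast_one, neg_mul, one_mul, _root_.neg_neg] at hw2
    have := (O.M.mul_mem_cancel_right (show goodB2.xg 7 t ∈ O.M from ht)).1 hw2
    rw [← Over.mem_par, neg_mem_iff] at this
    exact this
  have mul : ∀ t u, t ∈ O.par 6 → u ∈ O.par 6 → t * u ∈ O.par 7 := by
    intro t u ht hu
    have hw := O.word_mem (r := 5) (s := 6) pos5.1 pos6.1 (by decide) (by decide +kernel) (t := t) (u := u)
      (by rwa [par5 O T hs0]) hu
    rw [ct (by norm_num) (by norm_num), b2tab.2.2.1] at hw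
    simp only [List.map_cons, List.map_nil, List.prod_cons, List.prod_nil, mul_one, pow_one] at hw
    refine mem_of_mul_mem (p := p) _ hd (neg_mem_iff.1 ?_)
    rw [Over.mem_par]
    convert hw using 2
    push_cast; ring
  have le76 : ∀ t, t ∈ O.par 7 → t ∈ O.par 6 := fun t ht => by
    have hN := O.nor_of_mem (goodB2.xg_mem_pos pos7 t) ht
    have h1 := conj7 O hN
    have h2 : goodB2.xg 4 t ∈ O.M := by rw [← Over.mem_par, par4 O T hs0]; exact ht
    exact (O.M.mul_mem_cancel_right h2).1 h1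
  have le67 : ∀ t, t ∈ O.par 6 → t ∈ O.par 7 := fun t ht => by
    simpa using mul t 1 ht (O.one_mem_par pos6.1)
  haveI : Finite (O.par 7) := O.finite_par pos7.1
  have hmul7 : ∀ t u, t ∈ O.par 7 → u ∈ O.par 7 → t * u ∈ O.par 7 := fun t u ht hu =>
    mul t u (le76 t ht) (le76 u hu)
  let K : Subfield k :=
    { carrier := O.par 7
      zero_mem' := zero_mem _
      one_mem' := O.one_mem_par pos7.1
      add_mem' := add_mem
      neg_mem' := neg_mem
      mul_mem' := fun {a b} ha hb => hmul7 a b ha hb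
      inv_mem' := fun x hx => by
        by_cases h0 : x = 0
        · rw [h0, inv_zero]; exact zero_mem _
        let f : O.par 7 → O.par 7 := fun y => ⟨x * y, hmul7 _ _ hx y.2⟩
        have hf : Function.Injective f := fun a b h => Subtype.ext (mul_left_cancel₀ h0 (congrArg Subtype.val h))
        obtain ⟨y, hy⟩ := Finite.surjective_of_injective hf ⟨1, O.one_mem_par pos7.1⟩
        rw [inv_eq_of_mul_eq_one_right (congrArg Subtype.val hy)]
        exact y.2 }
  refine assemble O T hs0 K (fun t => Iff.rfl) (fun t => ⟨le67 t, le76 t⟩) l6 ?_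
  intro t w hw hN
  rw [lead7_of hw, mul_one] at hN
  have h := conj7 O hN
  rw [show goodB2.xg 6 t * goodB2.xg 4 t = goodB2.xg 4 t * goodB2.xg 6 t from
    (xg_commute goodB2 pos4.1 pos6.1 (by decide) (by decide +kernel)
      (by rw [ct (by norm_num) (by norm_num)]; exact b2tab.2.2.2.2.1) t t).symm.eq] at h
  have h6 : goodB2.xg 6 t ∈ up goodB2 k 5 := xg_mem_up goodB2 pos6 (by norm_num) t
  exact le67 t ((lead_simple O l6).1 t _ h6
    (O.nor_of_mem (mul_mem (goodB2.xg_mem_pos pos4 _) (goodB2.xg_mem_pos pos6 _)) h))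

theorem rat_two [CharP k 2] : Nonempty (Rat O) := by
  have two : (2 : k) = 0 := by
    have := CharP.cast_eq_zero k 2; exact_mod_cast this
  have hneg : ∀ x : k, -x = x := fun x => neg_eq_of_add_eq_zero_left (by rw [← two_mul, two, zero_mul])
  have comm : ∀ r s : ℕ, chevB2.IsPosRoot r → chevB2.IsPosRoot s → s ≠ r →
      (∀ c ∈ commT tabB2 r s, (c.2.1 : k) = 0) → ∀ t u : k, Commute (goodB2.xg r t) (goodB2.xg s u) := by
    intro r s hr hs hne h t u
    refine xg_commute_of_coeff goodB2 hr.1 hs.1 hne (goodB2.ne_neg_of_pos hr hs) ?_ t u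
    rw [commT_eq goodB2 hr.1 hs.1]; exact h
  have c56 : ∀ t u : k, Commute (goodB2.xg 5 t) (goodB2.xg 6 u) :=
    comm 5 6 pos5 pos6 (by decide) (by rw [b2tab.2.2.1]; simp [two])
  have c46 : ∀ t u : k, Commute (goodB2.xg 4 t) (goodB2.xg 6 u) :=
    comm 4 6 pos4 pos6 (by decide) (by rw [b2tab.2.2.2.2.1]; simp)
  have c7 : ∀ r, chevB2.IsPosRoot r → ∀ t u : k, Commute (goodB2.xg 7 t) (goodB2.xg r u) := fun r hr t u => by
    have := T.hi_central t (goodB2.xg_mem_pos hr u)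
    rwa [hi7] at this
  -- the commutator of the two fundamental root elements
  have c54 : ∀ w v : k, goodB2.xg 5 w * goodB2.xg 4 v * (goodB2.xg 5 w)⁻¹ * (goodB2.xg 4 v)⁻¹ =
      goodB2.xg 6 (w * v) * goodB2.xg 7 (w * w * v) := by
    intro w v
    have e := xg_comm_word goodB2 (r := 4) (s := 5) pos4.1 pos5.1 (by decide) (by decide +kernel) v w
    rw [ct (by norm_num) (by norm_num), b2tab.1] at e
    simp only [List.map_cons, List.map_nil, List.prod_cons, List.prod_nil, mul_one, pow_one, Int.cast_neg,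
      Int.cast_one, hneg, one_mul] at e
    rw [e]
    have hc : Commute (goodB2.xg 4 v * goodB2.xg 5 w) (goodB2.xg 6 (v * w) * goodB2.xg 7 (v * w ^ 2)) :=
      Commute.mul_left ((c46 _ _).mul_right ((c7 4 pos4 _ _).symm)) ((c56 _ _).mul_right ((c7 5 pos5 _ _).symm))
    rw [hc.eq, show w * v = v * w by ring, show w * w * v = v * w ^ 2 by ring]
    group
  let P : AddSubgroup (k × k) :=
    { carrier := {x | goodB2.xg 6 x.1 * goodB2.xg 7 x.2 ∈ O.M}
      zero_mem' := by simp [goodB2.xg_zero]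
      add_mem' := by
        intro a b ha hb
        simp only [Set.mem_ofPred_eq, Prod.fst_add, Prod.snd_add] at ha hb ⊢
        rw [← goodB2.xg_add, ← goodB2.xg_add, mul_assoc, ← mul_assoc (goodB2.xg 6 b.1),
          ← (c7 6 pos6 _ _).eq, mul_assoc (goodB2.xg 7 a.2), ← mul_assoc (goodB2.xg 6 a.1)]
        exact mul_mem ha hb
      neg_mem' := by
        intro a ha
        simpa [hneg] using ha }
  have memP : ∀ w v : k, (w, v) ∈ P ↔ goodB2.xg 6 w * goodB2.xg 7 v ∈ O.M := fun _ _ => Iff.rfl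
  have hng : ∀ j, j < 2 → ∀ r s : ℕ, chevB2.reflectRoot j r = s → r < 8 → ∀ t : k,
      goodB2.ng (chevB2.simple j) 1 * goodB2.xg r t * (goodB2.ng (chevB2.simple j) (1 : k))⁻¹ =
        goodB2.xg s t := by
    intro j hj r s h hr t
    rw [goodB2.ng_simple_mul_xg (by rw [b2refl.2.2.2.2.2.2.2.2.2.2.2]; exact hj)
      (by rw [b2refl.2.2.2.2.2.2.2.2.2.2.1]; exact hr), mul_inv_cancel_right, h]
    rcases goodB2.eta_eq j r with e | e <;> rw [e] <;> simp [hneg]
  have nM : ∀ j, j < 2 → ∀ x ∈ O.M,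
      goodB2.ng (chevB2.simple j) 1 * x * (goodB2.ng (chevB2.simple j) (1 : k))⁻¹ ∈ O.M := fun j hj x hx =>
    have h := O.ng_mem (goodB2.simple_lt (i := j) (by rw [b2refl.2.2.2.2.2.2.2.2.2.2.2]; exact hj))
    mul_mem (mul_mem h hx) (inv_mem h)
  have moveB : ∀ {w v : k}, (w, v) ∈ P → goodB2.xg 5 w * goodB2.xg 7 v ∈ O.M := by
    intro w v h
    have := nM 1 (by norm_num) _ h
    rw [show goodB2.ng (chevB2.simple 1) 1 * (goodB2.xg 6 w * goodB2.xg 7 v) * (goodB2.ng (chevB2.simple 1) (1 : k))⁻¹ =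
      (goodB2.ng (chevB2.simple 1) 1 * goodB2.xg 6 w * (goodB2.ng (chevB2.simple 1) (1 : k))⁻¹) *
      (goodB2.ng (chevB2.simple 1) 1 * goodB2.xg 7 v * (goodB2.ng (chevB2.simple 1) (1 : k))⁻¹) by group,
      hng 1 (by norm_num) 6 5 b2refl.2.2.2.2.1 (by norm_num), hng 1 (by norm_num) 7 7 b2refl.2.2.2.2.2.1 (by norm_num)]
      at this
    exact this
  have moveA : ∀ {w v : k}, (w, v) ∈ P → goodB2.xg 6 w * goodB2.xg 4 v ∈ O.M := by
    intro w v h
    have := nM 0 (by norm_num) _ h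
    rw [show goodB2.ng (chevB2.simple 0) 1 * (goodB2.xg 6 w * goodB2.xg 7 v) * (goodB2.ng (chevB2.simple 0) (1 : k))⁻¹ =
      (goodB2.ng (chevB2.simple 0) 1 * goodB2.xg 6 w * (goodB2.ng (chevB2.simple 0) (1 : k))⁻¹) *
      (goodB2.ng (chevB2.simple 0) 1 * goodB2.xg 7 v * (goodB2.ng (chevB2.simple 0) (1 : k))⁻¹) by group,
      hng 0 (by norm_num) 6 6 b2refl.2.2.1 (by norm_num), hng 0 (by norm_num) 7 4 b2refl.2.2.2.1 (by norm_num)]
      at this
    exact this
  -- mixed commutator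
  have mixed : ∀ {w v w' v' : k}, goodB2.xg 5 w * goodB2.xg 7 v ∈ O.M → goodB2.xg 6 w' * goodB2.xg 4 v' ∈ O.M →
      (w * v', w * w * v') ∈ P := by
    intro w v w' v' ha hb
    have h := mul_mem (mul_mem (mul_mem ha hb) (inv_mem ha)) (inv_mem hb)
    have h7 : Commute (goodB2.xg 7 v) (goodB2.xg 6 w' * goodB2.xg 4 v') := (c7 6 pos6 v w').mul_right (c7 4 pos4 v v')
    have h6 : Commute (goodB2.xg 6 w') (goodB2.xg 5 w * goodB2.xg 4 v' * (goodB2.xg 5 w)⁻¹) :=
      ((c56 w w').symm.mul_right (c46 v' w').symm).mul_right (c56 w w').symm.inv_right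
    have e : goodB2.xg 5 w * goodB2.xg 7 v * (goodB2.xg 6 w' * goodB2.xg 4 v') * (goodB2.xg 5 w * goodB2.xg 7 v)⁻¹ *
        (goodB2.xg 6 w' * goodB2.xg 4 v')⁻¹ =
        goodB2.xg 5 w * goodB2.xg 4 v' * (goodB2.xg 5 w)⁻¹ * (goodB2.xg 4 v')⁻¹ := by
      calc _ = goodB2.xg 5 w * (goodB2.xg 7 v * (goodB2.xg 6 w' * goodB2.xg 4 v') * (goodB2.xg 7 v)⁻¹) *
            (goodB2.xg 5 w)⁻¹ * (goodB2.xg 6 w' * goodB2.xg 4 v')⁻¹ := by group
        _ = goodB2.xg 5 w * goodB2.xg 6 w' * (goodB2.xg 5 w)⁻¹ *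
            (goodB2.xg 5 w * goodB2.xg 4 v' * (goodB2.xg 5 w)⁻¹) *
            (goodB2.xg 4 v')⁻¹ * (goodB2.xg 6 w')⁻¹ := by rw [h7.eq]; group
        _ = goodB2.xg 6 w' * ((goodB2.xg 5 w * goodB2.xg 4 v' * (goodB2.xg 5 w)⁻¹) * (goodB2.xg 4 v')⁻¹) *
            (goodB2.xg 6 w')⁻¹ := by rw [(c56 w w').eq]; group
        _ = _ := by
          rw [(h6.mul_right (c46 v' w').symm.inv_right).eq, mul_inv_cancel_right]
    rw [e, c54] at h
    exact h
  have hone6 : goodB2.xg 6 (1 : k) * goodB2.xg 7 (0 : k) ∈ O.M := by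
    rw [goodB2.xg_zero, mul_one]; exact O.one_mem 6 pos6.1
  have hone4 : goodB2.xg 6 (0 : k) * goodB2.xg 4 1 ∈ O.M := by
    rw [goodB2.xg_zero, one_mul]; exact O.one_mem 4 pos4.1
  have hone5 : goodB2.xg 5 (1 : k) * goodB2.xg 7 (0 : k) ∈ O.M := by
    rw [goodB2.xg_zero, mul_one]; exact O.one_mem 5 pos5.1
  have sq : ∀ {w v : k}, (w, v) ∈ P → (w, w * w) ∈ P := fun h => by simpa using mixed (moveB h) hone4
  have diag : ∀ {w v : k}, (w, v) ∈ P → (v, v) ∈ P := fun h => by simpa using mixed hone5 (moveA h)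
  haveI : Finite O.M := O.finM
  have hcomp : ∀ x : k × k, x ∈ P → x = (x.1, x.2) := fun _ _ => rfl
  haveI hPfin : Finite P := by
    refine Finite.of_injective (fun x : P => (⟨goodB2.xg 6 x.1.1 * goodB2.xg 7 x.1.2, x.2⟩ : O.M)) ?_
    intro a b h
    have h' := congrArg Subtype.val h
    have h7' : ∀ e : k, goodB2.xg 7 e ∈ up goodB2 k (6 + 1) := fun e => xg_mem_up goodB2 pos7 (by norm_num) e
    have h1 := lead_unique goodB2 pos6 (h7' _) (h7' _) h'
    simp only [h1] at h'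
    exact Subtype.ext (Prod.ext h1 (goodB2.xg_injective pos7.1 (mul_left_cancel h')))
  let W : AddSubgroup k := P.map (AddMonoidHom.fst k k)
  have memW : ∀ {w : k}, w ∈ W ↔ ∃ v, (w, v) ∈ P := by
    intro w
    exact ⟨fun ⟨x, hx, e⟩ => ⟨x.2, by rw [← e]; exact hx⟩, fun ⟨v, hv⟩ => ⟨(w, v), hv, rfl⟩⟩
  haveI : Finite W := Finite.of_surjective (fun x : P => (⟨x.1.1, memW.2 ⟨x.1.2, x.2⟩⟩ : W))
    fun w => by obtain ⟨v, hv⟩ := memW.1 w.2; exact ⟨⟨(w.1, v), hv⟩, rfl⟩
  have sqW : ∀ w ∈ W, w * w ∈ W := fun w hw => by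
    obtain ⟨v, hv⟩ := memW.1 hw
    exact memW.2 ⟨_, diag (sq hv)⟩
  have sqInj : Function.Injective fun w : W => (⟨w.1 * w.1, sqW _ w.2⟩ : W) := by
    intro a b h
    have h' := congrArg Subtype.val h
    have : (a.1 - b.1) * (a.1 - b.1) = 0 := by linear_combination h' + (b.1 * b.1 - a.1 * b.1) * two
    exact Subtype.ext (sub_eq_zero.1 (mul_self_eq_zero.1 this))
  have diagW : ∀ w ∈ W, (w, w) ∈ P := fun w hw => by
    obtain ⟨x, hx⟩ := Finite.surjective_of_injective sqInj ⟨w, hw⟩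
    obtain ⟨v, hv⟩ := memW.1 x.2
    have := diag (sq hv)
    rwa [show x.1 * x.1 = w from congrArg Subtype.val hx] at this
  have mulW : ∀ a b, a ∈ W → b ∈ W → a * b ∈ W := fun a b ha hb => by
    obtain ⟨v, hv⟩ := memW.1 ha
    exact memW.2 ⟨_, mixed (moveB hv) (moveA (diagW b hb))⟩
  have oneW : (1 : k) ∈ W := memW.2 ⟨0, hone6⟩
  have top : ∀ w ∈ W, (0, w) ∈ P := by
    intro b hb
    by_cases hall : ∀ w ∈ W, w * w = w
    · rcases mul_eq_zero.1 (show b * (b - 1) = 0 by linear_combination hall b hb) with h | h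
      · rw [h]; exact P.zero_mem
      · rw [sub_eq_zero.1 h]
        show goodB2.xg 6 (0 : k) * goodB2.xg 7 1 ∈ O.M
        rw [goodB2.xg_zero, one_mul]; exact O.one_mem 7 pos7.1
    · push Not at hall
      obtain ⟨w, hw, hne⟩ := hall
      have hd : w * w - w ≠ 0 := sub_ne_zero.2 hne
      -- divide by the non-zero Artin–Schreier value
      let f : W → W := fun y => ⟨(w * w - w) * y.1, mulW _ _ (sub_mem (sqW w hw) hw) y.2⟩
      have hf : Function.Injective f := fun a b h => Subtype.ext (mul_left_cancel₀ hd (congrArg Subtype.val h))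
      obtain ⟨y, hy⟩ := Finite.surjective_of_injective hf ⟨b, hb⟩
      obtain ⟨v, hv⟩ := memW.1 hw
      have h1 := mixed (moveB hv) (moveA (diagW _ y.2))
      have h2 := sub_mem h1 (diagW _ (mulW _ _ hw y.2))
      rw [show b = (w * w - w) * y.1 from (congrArg Subtype.val hy).symm]
      simpa [sub_mul] using h2
  have hP6 : ∀ {t : k}, t ∈ O.par 6 ↔ t ∈ W := by
    intro t
    refine ⟨fun h => memW.2 ⟨0, ?_⟩, fun h => ?_⟩
    · show goodB2.xg 6 t * goodB2.xg 7 0 ∈ O.M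
      rw [goodB2.xg_zero, mul_one]; exact h
    · have := sub_mem (diagW t h) (top t h)
      simp only [Prod.mk_sub_mk, sub_zero, sub_self] at this
      rw [memP, goodB2.xg_zero, mul_one] at this
      exact this
  have hP7 : ∀ {t : k}, t ∈ O.par 7 ↔ t ∈ W := by
    intro t
    refine ⟨fun h => memW.2 ⟨_, diag (w := 0) ?_⟩, fun h => ?_⟩
    · show goodB2.xg 6 0 * goodB2.xg 7 t ∈ O.M
      rw [goodB2.xg_zero, one_mul]; exact h
    · have := (memP 0 t).1 (top t h)
      rwa [goodB2.xg_zero, one_mul] at this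
  let K : Subfield k :=
    { carrier := W
      zero_mem' := zero_mem _
      one_mem' := oneW
      add_mem' := add_mem
      neg_mem' := neg_mem
      mul_mem' := fun {a b} ha hb => mulW a b ha hb
      inv_mem' := fun x hx => by
        by_cases h0 : x = 0
        · rw [h0, inv_zero]; exact zero_mem _
        let f : W → W := fun y => ⟨x * y, mulW _ _ hx y.2⟩
        have hf : Function.Injective f := fun a b h => Subtype.ext (mul_left_cancel₀ h0 (congrArg Subtype.val h))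
        obtain ⟨y, hy⟩ := Finite.surjective_of_injective hf ⟨1, oneW⟩
        rw [inv_eq_of_mul_eq_one_right (congrArg Subtype.val hy)]
        exact y.2 }
  refine assemble O T hs0 K (fun t => hP7) (fun t => hP6) ?_ ?_
  · intro t w hw hN
    obtain ⟨e, w', hw', rfl⟩ := exists_lead goodB2 pos7 hw
    rw [lead7_of hw', mul_one] at hN
    have h3 : (3 : ℕ) < chevB2.nroots := by decide +kernel
    have a7 : Commute (goodB2.xg 7 e) (goodB2.xg 3 (1 : k)) :=
      xg_commute goodB2 pos7.1 h3 (by decide) (by decide +kernel)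
        (by rw [ct (by norm_num) (by norm_num)]; exact b2tab.2.2.2.2.2.2.2) e 1
    have e3 := xg_comm_word goodB2 (r := 6) (s := 3) pos6.1 h3 (by decide) (by decide +kernel) t (1 : k)
    rw [ct (by norm_num) (by norm_num), b2tab.2.2.2.2.2.2.1] at e3
    simp only [List.map_cons, List.map_nil, List.prod_cons, List.prod_nil, mul_one, pow_one, one_pow, Int.cast_neg,
      Int.cast_one, hneg, one_mul] at e3
    set Z := goodB2.xg 5 t * goodB2.xg 7 (t ^ 2)
    have hc6 : Commute (goodB2.xg 6 t) Z := (c56 t t).symm.mul_right (c7 6 pos6 _ t).symm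
    have hZ : Z ∈ O.M := by
      have h := mul_mem (inv_mem (hN.2 3 h3)) (O.one_mem 3 h3)
      have e' : (goodB2.xg 6 t * goodB2.xg 7 e * goodB2.xg 3 1 * (goodB2.xg 6 t * goodB2.xg 7 e)⁻¹)⁻¹ *
          goodB2.xg 3 1 = Z := by
        calc _ = (goodB2.xg 6 t * (goodB2.xg 7 e * goodB2.xg 3 1 * (goodB2.xg 7 e)⁻¹) * (goodB2.xg 6 t)⁻¹)⁻¹ *
              goodB2.xg 3 1 := by group
          _ = goodB2.xg 6 t * (goodB2.xg 6 t * goodB2.xg 3 1)⁻¹ * (goodB2.xg 3 1 * goodB2.xg 6 t) *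
              (goodB2.xg 6 t)⁻¹ := by rw [a7.eq]; group
          _ = goodB2.xg 6 t * Z * (goodB2.xg 6 t)⁻¹ := by rw [e3]; group
          _ = Z := by rw [hc6.eq, mul_inv_cancel_right]
      rwa [e'] at h
    have := mixed hZ hone4
    exact hP6.2 (memW.2 ⟨_, by simpa using this⟩)
  · intro t w hw hN
    rw [lead7_of hw, mul_one] at hN
    have := mixed hone5 (conj7 O hN)
    exact hP7.2 (memW.2 ⟨_, by simpa using this⟩)

end Cfsg.Agent.H64.Subfield.B2
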