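import Cfsg.Agent.H64.Subfield.Line
import Cfsg.Agent.H46.TypeB2

/-!
# Table data of type `B2` for the subfield theorem
-/

set_option autoImplicit false

namespace Cfsg.Agent.H64.Subfield

open Cfsg.Lie Cfsg.Agent.H46

/-- The type `B2`. -/
def tyB2 : Ty goodB2 where
  s0 := 6
  i := 0
  hi' := by decide +kernel
  one := false
  hone := fun h => absurd h (by decide)
  reps := by decide +kernel
  heis := by decide +kernel
  link := by decide +kernel
  oppo := by decide +kernel
  lead := by decide +kernel

end Cfsg.Agent.H64.Subfield
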