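import Cfsg.Agent.H64.Subfield.Line
import Cfsg.Agent.H46.TypeE7

/-!
# Table data of type `E7` for the subfield theorem
-/

set_option autoImplicit false

namespace Cfsg.Agent.H64.Subfield

open Cfsg.Lie Cfsg.Agent.H46

/-- The type `E7`. -/
def tyE7 : Ty goodE7 where
  s0 := 125
  i := 0
  hi' := by decide +kernel
  one := true
  hone := fun _ r hr => by
    revert r
    decide +kernel
  reps := by decide +kernel
  heis := by decide +kernel
  link := by decide +kernel
  oppo := by decide +kernel
  lead := by decide +kernel

theorem genE7_mul : chkMul chevE7 (commT goodE7.tab) tyE7.cl (chevE7.simple 0) 124 = true := by decide +kernel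

/-- The checks of type `E7`. -/
def genE7 : Gen tyE7 where
  a := chevE7.simple 0
  b := 124
  na := chevE7.neg (chevE7.simple 0)
  h' := 124
  mul := genE7_mul
  torus := by decide +kernel
  step := by decide +kernel
  top := by decide +kernel
  tail := Or.inl (by decide +kernel)

/-- A line root of type `E7`. -/
def lineE7 : Line tyE7 where
  l := 124
  q := 32
  chk := by decide +kernel

/-- A plane of type `E7`. -/
def planeE7 : Plane tyE7 where
  L := lineE7
  L2 := { l := 123, q := 31, chk := by decide +kernel }
  sj := chevE7.simple 2
  chk := by decide +kernel

end Cfsg.Agent.H64.Subfield
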