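import Cfsg.Agent.H64.Subfield.Line
import Cfsg.Agent.H46.TypeE8

/-!
# Table data of type `E8` for the subfield theorem
-/

set_option autoImplicit false

namespace Cfsg.Agent.H64.Subfield

open Cfsg.Lie Cfsg.Agent.H46

/-- The type `E8`. -/
def tyE8 : Ty goodE8 where
  s0 := 239
  i := 7
  hi' := by decide +kernel
  one := true
  hone := fun _ r hr => by
    revert r
    decide +kernel
  reps := by decide +kernel
  heis := by decide +kernel
  link := by decide +kernel
  oppo := by decide +kernel
  lead := by decide +kernel

theorem genE8_mul : chkMul chevE8 (commT goodE8.tab) tyE8.cl (chevE8.simple 7) 238 = true := by decide +kernel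

/-- The checks of type `E8`. -/
def genE8 : Gen tyE8 where
  a := chevE8.simple 7
  b := 238
  na := chevE8.neg (chevE8.simple 7)
  h' := 238
  mul := genE8_mul
  torus := by decide +kernel
  step := by decide +kernel
  top := by decide +kernel
  tail := Or.inl (by decide +kernel)

/-- A line root of type `E8`. -/
def lineE8 : Line tyE8 where
  l := 238
  q := 119
  chk := by decide +kernel

/-- A plane of type `E8`. -/
def planeE8 : Plane tyE8 where
  L := lineE8
  L2 := { l := 237, q := 117, chk := by decide +kernel }
  sj := chevE8.simple 6
  chk := by decide +kernel

end Cfsg.Agent.H64.Subfield
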