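import Cfsg.Agent.H64.Subfield.Line
import Cfsg.Agent.H46.TypeF4

/-!
# Table data of type `F4` for the subfield theorem
-/

set_option autoImplicit false

namespace Cfsg.Agent.H64.Subfield

open Cfsg.Lie Cfsg.Agent.H46

/-- The type `F4`. -/
def tyF4 : Ty goodF4 where
  s0 := 44
  i := 3
  hi' := by decide +kernel
  one := false
  hone := fun h => absurd h (by decide)
  reps := by decide +kernel
  heis := by decide +kernel
  link := by decide +kernel
  oppo := by decide +kernel
  lead := by decide +kernel

/-- The short roots of type `F4`. -/
def shortF4 : ShortData tyF4 where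
  j := 0
  hj := by decide +kernel
  s' := 40
  s1 := 33
  s2 := 33
  refl := by decide +kernel
  desc := by decide +kernel
  kk := 2
  hkk := by decide +kernel
  r := 27
  s := 28
  r' := 27
  t' := 25
  short := by decide +kernel

theorem genF4_mul : chkMul chevF4 (commT goodF4.tab) tyF4.cl (chevF4.simple 3) 46 = true := by decide +kernel

/-- The checks of type `F4`. -/
def genF4 : Gen tyF4 where
  a := chevF4.simple 3
  b := 46
  na := chevF4.neg (chevF4.simple 3)
  h' := 46
  mul := genF4_mul
  torus := by decide +kernel
  step := by decide +kernel
  top := by decide +kernel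
  tail := Or.inr ⟨by decide +kernel, ⟨shortF4⟩⟩

/-- A line root of type `F4`. -/
def lineF4 : Line tyF4 where
  l := 46
  q := 23
  chk := by decide +kernel

/-- A plane of type `F4`. -/
def planeF4 : Plane tyF4 where
  L := lineF4
  L2 := { l := 45, q := 21, chk := by decide +kernel }
  sj := chevF4.simple 2
  chk := by decide +kernel

end Cfsg.Agent.H64.Subfield
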