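import Cfsg.Agent.H64.Subfield.Line
import Cfsg.Agent.H46.TypeG2

/-!
# Table data of type `G2` for the subfield theorem
-/

set_option autoImplicit false

namespace Cfsg.Agent.H64.Subfield

open Cfsg.Lie Cfsg.Agent.H46

/-- The type `G2`. -/
def tyG2 : Ty goodG2 where
  s0 := 9
  i := 1
  hi' := by decide +kernel
  one := false
  hone := fun h => absurd h (by decide)
  reps := by decide +kernel
  heis := by decide +kernel
  link := by decide +kernel
  oppo := by decide +kernel
  lead := by decide +kernel

/-- The short roots of type `G2`. -/
def shortG2 : ShortData tyG2 where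
  j := 0
  hj := by decide +kernel
  s' := 8
  s1 := 9
  s2 := 7
  refl := by decide +kernel
  desc := by decide +kernel
  kk := 3
  hkk := by decide +kernel
  r := 7
  s := 9
  r' := 7
  t' := 6
  short := by decide +kernel

theorem genG2_mul : chkMul chevG2 (commT goodG2.tab) tyG2.cl (chevG2.simple 1) 10 = true := by decide +kernel

/-- The checks of type `G2`. -/
def genG2 : Gen tyG2 where
  a := chevG2.simple 1
  b := 10
  na := chevG2.neg (chevG2.simple 1)
  h' := 10
  mul := genG2_mul
  torus := by decide +kernel
  step := by decide +kernel
  top := by decide +kernel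
  tail := Or.inr ⟨by decide +kernel, ⟨shortG2⟩⟩

/-- A line root of type `G2`. -/
def lineG2 : Line tyG2 where
  l := 10
  q := 5
  chk := by decide +kernel

end Cfsg.Agent.H64.Subfield
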