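import Cfsg.Agent.H64.Subfield.Line
import Cfsg.Agent.H46.TypeG2
import Cfsg.Agent.H46.TypeB2

/-!
# The types `B₂` and `G₂` in characteristic two
-/

set_option autoImplicit false

namespace Cfsg.Agent.H64.Subfield

open Cfsg.Lie Cfsg.Agent.H46 Cfsg.Agent.H65
open scoped Matrix MatrixGroups

variable {k : Type*} [Field k]

/-! ### Type `B₂` -/

theorem b2ct0 : commT tabB2 0 6 = [(2, -1, 1, 1), (4, 1, 1, 2)] := by decide +kernel
theorem b2ct62 : commT tabB2 6 2 = [(4, 2, 1, 1)] := by decide +kernel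
theorem b2ct64 : commT tabB2 6 4 = [] := by decide +kernel
theorem b2ct65 : commT tabB2 6 5 = [(7, -2, 1, 1)] := by decide +kernel
theorem b2basic : chevB2.nroots = 8 ∧ hi chevB2 = 7 ∧ chevB2.neg 0 = 7 ∧ chevB2.neg 6 = 1 ∧
    ¬ 0 < chevB2.pairing 7 4 ∧ 0 < chevB2.pairing 7 6 := by decide +kernel

theorem false_two_B2 [CharP k 2] {O : Over goodB2 k} (C : Core O) {g : GL chevB2.Idx k} (hg : g ∈ O.M)
    (hn : g ∉ C.fx) : False := by
  haveI : Fact (Nat.Prime 2) := ⟨Nat.prime_two⟩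
  obtain ⟨hn8, hh7, hneg0, hneg6, h74, h76⟩ := b2basic
  have p6 : chevB2.IsPosRoot 6 := by decide +kernel
  have m6 : (6 : ℕ) ∈ C.T.hset := ((C.T.heis_spec (r := 6) (by omega)).1.1 (by rw [hh7]; exact h76)).2
  obtain ⟨y, hy, c, hc, e⟩ := C.exists_opposite (p := 2) hg hn
  set τ := goodB2.xg 6 (1 : k) with hτdef
  have hτ : τ ∈ C.T.rad k (chevB2.nroots / 2) := C.T.xg_mem_rad p6 m6 (by omega) 1
  have hτ1 : τ ≠ 1 := fun h => one_ne_zero ((goodB2.xg_eq_one_iff (by omega) (1 : k)).1 h)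
  refine C.false_of_commute_conj (p := 2) (O.one_mem 6 (by omega)) hτ hτ1 hg hn e ?_
  have hyτ : Commute y τ := by
    have : C.T.rad k (chevB2.nroots / 2) ≤ Subgroup.centralizer {τ} := by
      refine (Subgroup.closure_le _).2 ?_
      rintro x ⟨r, b, ⟨hr, hm, -⟩, rfl⟩
      rw [SetLike.mem_coe, Subgroup.mem_centralizer_singleton_iff, hτdef]
      have hr4 : 4 ≤ r ∧ r < 8 := by
        have := goodB2.isPosRoot_iff.1 hr
        omega
      have hcases : r = 4 ∨ r = 5 ∨ r = 6 ∨ r = 7 := by omega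
      rcases hcases with rfl | rfl | rfl | rfl
      · exfalso
        refine h74 ?_
        have := (C.T.heis_spec (r := 4) (by omega)).1.2 ⟨hr, hm⟩
        rwa [hh7] at this
      · refine ((xg_commute_of_coeff goodB2 p6.1 hr.1 (by omega) (goodB2.ne_neg_of_pos p6 hr) (fun q hq => ?_) 1 b).symm).eq
        rw [commT_eq goodB2 (by omega) (by omega), show goodB2.tab = tabB2 from rfl, b2ct65] at hq
        simp only [List.mem_singleton] at hq
        subst hq
        simp [CharTwo.two_eq_zero, CharTwo.neg_eq]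
      · rw [goodB2.xg_add, goodB2.xg_add, add_comm]
      · have h := C.T.hi_central b (goodB2.xg_mem_pos p6 (1 : k))
        rw [hh7] at h
        exact h.eq
    exact Subgroup.mem_centralizer_singleton_iff.1 (this hy)
  have hA : y⁻¹ * τ * y = τ := by rw [mul_assoc, ← hyτ.eq, inv_mul_cancel_left]
  rw [hA]
  have e1 := xg_comm_word goodB2 (r := 0) (s := 6) (by omega) (by omega) (by decide) (by omega) (-c) (1 : k)
  rw [commT_eq goodB2 (by omega) (by omega), show goodB2.tab = tabB2 from rfl, b2ct0] at e1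
  simp only [List.map_cons, List.map_nil, List.prod_cons, List.prod_nil, mul_one, pow_one, one_pow,
    _root_.neg_neg] at e1
  have hconj : goodB2.xg 0 c * τ * (goodB2.xg 0 c)⁻¹ =
      τ * (goodB2.xg 2 (((-1 : ℤ) : k) * c) * goodB2.xg 4 (((1 : ℤ) : k) * c)) := by
    rw [← goodB2.xg_inv] at e1
    calc goodB2.xg 0 c * τ * (goodB2.xg 0 c)⁻¹ = goodB2.xg 0 c * (τ * (goodB2.xg 0 c)⁻¹) := mul_assoc _ _ _
      _ = _ := by rw [hτdef, e1]; group
  rw [hconj]
  have c2 : Commute τ (goodB2.xg 2 (((-1 : ℤ) : k) * c)) :=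
    xg_commute_of_coeff goodB2 (by omega) (by omega) (by decide) (by omega) (fun q hq => by
      rw [commT_eq goodB2 (by omega) (by omega), show goodB2.tab = tabB2 from rfl, b2ct62] at hq
      simp only [List.mem_singleton] at hq
      subst hq
      simp [CharTwo.two_eq_zero]) _ _
  have c4 : Commute τ (goodB2.xg 4 (((1 : ℤ) : k) * c)) :=
    xg_commute_of_coeff goodB2 (by omega) (by omega) (by decide) (by omega) (fun q hq => by
      rw [commT_eq goodB2 (by omega) (by omega), show goodB2.tab = tabB2 from rfl, b2ct64] at hq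
      simp at hq) _ _
  exact (Commute.refl τ).mul_right (c2.mul_right c4)

/-! ### Type `G₂` -/

theorem g2ct67 : commT tabG2 6 7 = [(8, 1, 1, 1), (9, 1, 1, 2), (10, -1, 1, 3), (11, -2, 2, 3)] := by
  decide +kernel
theorem g2ct108 : commT tabG2 10 8 = [] := by decide +kernel
theorem g2ct109 : commT tabG2 10 9 = [] := by decide +kernel
theorem g2basic : chevG2.nroots = 12 ∧ hi chevG2 = 11 ∧ 0 < chevG2.pairing 11 6 ∧ ¬ 0 < chevG2.pairing 11 7 ∧
    0 < chevG2.pairing 11 8 ∧ 0 < chevG2.pairing 11 9 ∧ 0 < chevG2.pairing 11 10 ∧ 0 < chevG2.pairing 11 11 ∧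
    longB chevG2 9 = false := by decide +kernel

theorem false_two_G2 [CharP k 2] {O : Over goodG2 k} (C : Core O) (L : Line C.T) (hL : L.l = 10)
    {g : GL chevG2.Idx k} (hg : g ∈ O.M) (hn : g ∉ C.fx) : False := by
  haveI : Fact (Nat.Prime 2) := ⟨Nat.prime_two⟩
  haveI := O.finM
  obtain ⟨hn12, hh, h6, h7, h8, h9, h10, h11, hs9⟩ := g2basic
  have hpos : ∀ r, 6 ≤ r → r < 12 → chevG2.IsPosRoot r := fun r h1 h2 => goodG2.isPosRoot_iff.2 (by omega)
  have hmem : ∀ r, 6 ≤ r → r < 12 → r ≠ 7 → r ∈ C.T.hset := by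
    intro r h1 h2 h3
    refine ((C.T.heis_spec (r := r) (by omega)).1.1 ?_).2
    rw [hh]
    have : r = 6 ∨ r = 8 ∨ r = 9 ∨ r = 10 ∨ r = 11 := by omega
    rcases this with rfl | rfl | rfl | rfl | rfl <;> assumption
  have hm7 : (7 : ℕ) ∉ C.T.hset := fun h => h7 (by
    have := (C.T.heis_spec (r := 7) (by omega)).1.2 ⟨hpos 7 (by omega) (by omega), h⟩
    rwa [hh] at this)
  set z := goodG2.xg (hi chevG2) (1 : k) with hz
  have hzM : z ∈ O.M := O.one_mem _ C.T.hpos.1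
  set τ := goodG2.xg 9 (1 : k) with hτdef
  have hτM : τ ∈ O.M := O.one_mem 9 (by omega)
  set z' := g * z * g⁻¹ with hz'
  have hz'M : z' ∈ O.M := mul_mem (mul_mem hg hzM) (inv_mem hg)
  have htt : τ * τ = 1 := by rw [hτdef, goodG2.xg_add, CharTwo.add_self_eq_zero, goodG2.xg_zero]
  have hzz : z' * z' = 1 := by
    rw [hz', show g * z * g⁻¹ * (g * z * g⁻¹) = g * (z * z) * g⁻¹ by group, hz, goodG2.xg_add,
      CharTwo.add_self_eq_zero, goodG2.xg_zero]
    group
  have hfin : IsOfFinOrder (τ * z') :=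
    Submonoid.isOfFinOrder_coe.2 (isOfFinOrder_of_finite (⟨_, mul_mem hτM hz'M⟩ : O.M))
  have hnot : ∀ j : ℕ, (τ * z') ^ j * τ * ((τ * z') ^ j)⁻¹ ≠ z' := by
    intro j hj
    set m := ((τ * z') ^ j)⁻¹ * g
    have hτe : m * z * m⁻¹ = τ := by
      rw [show m * z * m⁻¹ = ((τ * z') ^ j)⁻¹ * z' * (τ * z') ^ j by simp only [m, hz']; group]
      have h := congrArg (fun x => ((τ * z') ^ j)⁻¹ * x * (τ * z') ^ j) hj
      simp only [mul_assoc, inv_mul_cancel_left, inv_mul_cancel, mul_one] at h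
      rw [mul_assoc]
      exact h.symm
    have hm : m ∈ O.M := mul_mem (inv_mem (pow_mem (mul_mem hτM hz'M) j)) hg
    obtain ⟨v, r, a, hv, hl, ha, ev⟩ := C.T.conj_hi_form (O.le hm) (one_ne_zero (α := k))
    rw [← hz, hτe] at ev
    have hr := pos_of_conj_mem_pos r.2 ha hv (by rw [← ev]; exact goodG2.xg_mem_pos (hpos 9 (by omega) (by omega)) 1)
    obtain ⟨w, hw, ew⟩ := conj_lead goodG2 hr a hv
    rw [ew] at ev
    have hp9 := hpos 9 (by omega) (by omega)
    rcases lt_trichotomy (r : ℕ) 9 with h | h | h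
    · have : goodG2.xg r a ∈ up goodG2 k ((r : ℕ) + 1) := by
        rw [show goodG2.xg r a = τ * w⁻¹ by rw [ev, mul_inv_cancel_right]]
        exact mul_mem (xg_mem_up goodG2 hp9 (by omega) 1) (inv_mem hw)
      exact ha (xg_mem_up_succ goodG2 hr this)
    · rw [h] at hl
      rw [long_iff, hs9] at hl
      exact Bool.false_ne_true hl
    · have : τ ∈ up goodG2 k (9 + 1) := by
        rw [ev]
        exact mul_mem (xg_mem_up goodG2 hr (by omega) a) (up_mono goodG2 (by omega) hw)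
      exact one_ne_zero (xg_mem_up_succ goodG2 hp9 this)
  obtain ⟨i, hi', hi1, hii, hiτ, hiz⟩ := exists_central_of_not_conj htt hzz hfin hnot
  have hiM : i ∈ O.M := by
    refine (Subgroup.closure_le O.M).2 ?_ hi'
    rintro x (rfl | rfl)
    · exact hτM
    · exact hz'M
  have hτrad : τ ∈ C.T.rad k (chevG2.nroots / 2) :=
    C.T.xg_mem_rad (hpos 9 (by omega) (by omega)) (hmem 9 (by omega) (by omega) (by omega)) (by omega) 1
  have hτ1 : τ ≠ 1 := fun h => one_ne_zero ((goodG2.xg_eq_one_iff (by omega) (1 : k)).1 h)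
  have hif := C.fixed_of_commute_rad (p := 2) hτrad hτ1 hiM hiτ
  obtain ⟨m, hm, hmU⟩ := C.exists_conj_pos_H (p := 2) (C.mem_H hiM hif) (e := 1) (by rw [pow_one, pow_two, hii])
  set g' := m * g with hg'
  have hg'M : g' ∈ O.M := mul_mem (C.memM hm) hg
  have hn' : g' ∉ C.fx := fun h => hn ((C.fx.mul_mem_cancel_left (C.memF hm)).1 h)
  set i' := m * i * m⁻¹ with hi'def
  obtain ⟨y, hy, c, hc, e⟩ := C.exists_opposite (p := 2) hg'M hn'
  have hyU : y ∈ chevG2.posUnipotent k := C.T.rad_le _ hy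
  have hcy : Commute (y⁻¹ * i' * y) (goodG2.xg 0 c) := by
    have h2 : Commute i' (g' * z * g'⁻¹) := by
      show _ * _ = _ * _
      calc m * i * m⁻¹ * (m * g * z * (m * g)⁻¹) = m * (i * z') * m⁻¹ := by rw [hz']; group
        _ = m * (z' * i) * m⁻¹ := by rw [hiz.eq]
        _ = _ := by simp only [g', i', hz']; group
    rw [hz, e] at h2
    show y⁻¹ * i' * y * goodG2.xg 0 c = goodG2.xg 0 c * (y⁻¹ * i' * y)
    calc y⁻¹ * i' * y * goodG2.xg 0 c = y⁻¹ * (i' * (y * goodG2.xg 0 c * y⁻¹)) * y := by group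
      _ = y⁻¹ * (y * goodG2.xg 0 c * y⁻¹ * i') * y := by rw [h2.eq]
      _ = _ := by group
  have hcompl := C.T.compl_of_commute_zero hc (mul_mem (mul_mem (inv_mem hyU) hmU) hyU) hcy
  obtain ⟨s, hs⟩ : ∃ s, y⁻¹ * i' * y = goodG2.xg 7 s := by
    refine (goodG2.mem_rootSubgroup).1 ?_
    refine (Subgroup.closure_le _).2 ?_ hcompl
    rintro x ⟨r, t, ⟨hr, hr'⟩, rfl⟩
    have hr67 := goodG2.isPosRoot_iff.1 hr
    have : r = 7 := by
      by_contra h
      exact hr' (C.T.hset_subset_invSet (by simp [hc]) hr (hmem r (by omega) (by omega) h))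
    rw [this]
    exact goodG2.xg_mem_rootSubgroup _ _
  have hi'eq : i' = y * goodG2.xg 7 s * y⁻¹ := by rw [← hs]; group
  have hs0 : s ≠ 0 := by
    rintro rfl
    apply hi1
    have : i' = 1 := by rw [hi'eq, goodG2.xg_zero]; group
    exact conj_eq_one_iff.1 this
  have hi'M : i' ∈ O.M := mul_mem (mul_mem (C.memM hm) hiM) (inv_mem (C.memM hm))
  have hi'f := C.mem_fx.1 (C.pos_mem_fx hmU hi'M)
  have p7 := hpos 7 (by omega) (by omega)
  set X7 := goodG2.xg 7 s with hX7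
  have hwrad : X7⁻¹ * i' ∈ C.T.rad k (chevG2.nroots / 2) := by
    rw [hi'eq, show X7⁻¹ * (y * X7 * y⁻¹) = X7⁻¹ * y * X7⁻¹⁻¹ * y⁻¹ by group]
    exact mul_mem (C.T.conj_mem_rad (inv_mem (goodG2.xg_mem_borel p7 s)) hy) (inv_mem hy)
  have hsK : s ∈ C.R.K := by
    rw [← C.hφ]
    by_contra hne
    set w := X7⁻¹ * i'
    have hwf := mapGL_posSub goodG2 C.φ hwrad
    have h2 : goodG2.xg 7 (C.φ s - s) ∈ C.T.rad k (chevG2.nroots / 2) := by
      have e0 : i' = X7 * w := by simp [w]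
      rw [e0, map_mul, hX7, mapGL_xg goodG2] at hi'f
      have : goodG2.xg 7 (C.φ s - s) = w * (mapGL chevG2 C.φ w)⁻¹ := by
        rw [sub_eq_neg_add, ← goodG2.xg_add, ← goodG2.xg_inv, eq_mul_inv_iff_mul_eq, mul_assoc, hi'f,
          inv_mul_cancel_left]
      rw [this]
      exact mul_mem hwrad (inv_mem hwf)
    exact hm7 (Cfsg.Agent.H64.Radical.mem_of_xg_mem goodG2 (C.T.posClosed_hset _) p7 (sub_ne_zero.2 hne) h2).1
  have p6 := hpos 6 (by omega) (by omega)
  obtain ⟨b, y1, hy1, ey⟩ := exists_lead goodG2 p6 (m := 6) (by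
    have := C.T.rad_le_up _ hy
    rwa [show chevG2.nroots / 2 = 6 by omega] at this)
  have hy6 : y1 ∈ C.T.rad k (chevG2.nroots / 2) := by
    have : y1 = (goodG2.xg 6 b)⁻¹ * y := by rw [ey, inv_mul_cancel_left]
    rw [this]
    exact mul_mem (inv_mem (C.T.xg_mem_rad p6 (hmem 6 (by omega) (by omega) (by omega)) (by omega) b)) hy
  have hi'x : goodG2.xg 7 s * y * (goodG2.xg 7 s)⁻¹ * y⁻¹ ∈ O.M := by
    have h := inv_mem (mul_mem hi'M (inv_mem (C.R.mem 7 (by omega) s hsK)))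
    rwa [show (i' * (goodG2.xg 7 s)⁻¹)⁻¹ = goodG2.xg 7 s * y * (goodG2.xg 7 s)⁻¹ * y⁻¹ by
      rw [hi'eq, hX7]; group] at h
  obtain ⟨w', hw', ew⟩ := comm_lead goodG2 p6 p7 (by decide)
    (show chevG2.commTerms 6 7 = (8, 1, 1, 1) :: [(9, 1, 1, 2), (10, -1, 1, 3), (11, -2, 2, 3)] by
      rw [commT_eq goodG2 (by omega) (by omega)]; exact g2ct67) (by simp) b s hy1
  rw [← ey] at ew
  rw [ew] at hi'x
  have hK := C.lead_mem (hpos 8 (by omega) (by omega)) hw' hi'x
  have hbK : b ∈ C.R.K := by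
    rw [neg_mem_iff, Int.cast_one, one_mul] at hK
    have := mul_mem hK (inv_mem hsK)
    rwa [mul_inv_cancel_right₀ hs0] at this
  have hX6 := C.xg_mem (r := 6) (by omega) hbK
  set g'' := (goodG2.xg 6 b)⁻¹ * g'
  have hg''M : g'' ∈ O.M := mul_mem (inv_mem (C.memM hX6)) hg'M
  have hn'' : g'' ∉ C.fx := fun h => hn' ((C.fx.mul_mem_cancel_left (inv_mem (C.memF hX6))).1 h)
  have e'' : g'' * z * g''⁻¹ = y1 * goodG2.xg 0 c * y1⁻¹ := by
    rw [show g'' * z * g''⁻¹ = (goodG2.xg 6 b)⁻¹ * (g' * z * g'⁻¹) * goodG2.xg 6 b by simp only [g'']; group,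
      hz, e, ey]
    group
  have hy8 : y1 ∈ goodG2.posSub (F := k) (C.T.hset ∩ Set.Ici (chevG2.nroots / 2) ∩ Set.Ici (6 + 1)) := by
    rw [← goodG2.posSub_inf (C.T.posClosed_hset _) (posClosed_Ici goodG2 _)]
    exact Subgroup.mem_inf.2 ⟨hy6, hy1⟩
  refine C.false_of_line (p := 2) L hg''M hn'' hy6 e'' (ξ := 0) ?_ C.R.K.zero_mem
  rw [goodG2.xg_zero, mul_one, hL, mul_assoc]
  have hcm : Commute (goodG2.xg 10 (1 : k)) y1 := by
    have : goodG2.posSub (F := k) (C.T.hset ∩ Set.Ici (chevG2.nroots / 2) ∩ Set.Ici (6 + 1)) ≤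
        Subgroup.centralizer {goodG2.xg 10 (1 : k)} := by
      refine (Subgroup.closure_le _).2 ?_
      rintro x ⟨r, t, ⟨hr, ⟨hrm, -⟩, hr7⟩, rfl⟩
      rw [Set.mem_Ici] at hr7
      rw [SetLike.mem_coe, Subgroup.mem_centralizer_singleton_iff]
      have hrn := (goodG2.isPosRoot_iff.1 hr).2
      have p10 := hpos 10 (by omega) (by omega)
      have : r = 7 ∨ r = 8 ∨ r = 9 ∨ r = 10 ∨ r = 11 := by omega
      rcases this with rfl | rfl | rfl | rfl | rfl
      · exact absurd hrm hm7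
      · exact (xg_commute goodG2 p10.1 hr.1 (by decide) (goodG2.ne_neg_of_pos p10 hr)
          (by rw [commT_eq goodG2 (by omega) (by omega)]; exact g2ct108) 1 t).symm.eq
      · exact (xg_commute goodG2 p10.1 hr.1 (by decide) (goodG2.ne_neg_of_pos p10 hr)
          (by rw [commT_eq goodG2 (by omega) (by omega)]; exact g2ct109) 1 t).symm.eq
      · rw [goodG2.xg_add, goodG2.xg_add, add_comm]
      · have h := C.T.hi_central t (goodG2.xg_mem_pos p10 1)
        rw [hh] at h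
        exact h.eq
    exact (Subgroup.mem_centralizer_singleton_iff.1 (this hy8)).symm
  rw [hcm.eq, inv_mul_cancel_left]

end Cfsg.Agent.H64.Subfield
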