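import Cfsg.Agent.H64.Subfield.OddCase
import Cfsg.Agent.H64.Subfield.SmallRank
import Cfsg.Agent.H64.Subfield.B2Field
import Cfsg.Agent.H64.Subfield.DataG2
import Cfsg.Agent.H64.Subfield.DataB2
import Cfsg.Agent.H64.Subfield.DataD4
import Cfsg.Agent.H64.Subfield.DataF4
import Cfsg.Agent.H64.Subfield.DataE6
import Cfsg.Agent.H64.Subfield.DataE7
import Cfsg.Agent.H64.Subfield.DataE8

/-!
# Finite overgroups of the root elements with parameter one
-/

set_option autoImplicit false

namespace Cfsg.Agent.H64.Subfield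

open Cfsg.Lie Cfsg.Agent.H46 Cfsg.Agent.H65
open scoped Matrix MatrixGroups

variable {k : Type*} [Field k] {p : ℕ} [hp : Fact p.Prime] [CharP k p]

include hp

/-- A field endomorphism with a given finite fixed field. -/
theorem exists_frob (K : Subfield k) [Finite K] :
    ∃ φ : k →+* k, (∀ x, φ x = x ^ Nat.card K) ∧ ∀ x, φ x = x ↔ x ∈ K := by
  classical
  haveI := Fintype.ofFinite K
  haveI : CharP K p := (RingHom.charP_iff K.subtype K.subtype.injective p).2 inferInstance
  haveI : ExpChar k p := ExpChar.prime hp.out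
  obtain ⟨n, -, hn⟩ := FiniteField.card K p
  refine ⟨iterateFrobenius k p n, fun x => ?_, fun x => ⟨fun h => ?_, fun h => ?_⟩⟩
  · rw [iterateFrobenius_def, Nat.card_eq_fintype_card, hn]
  · rw [iterateFrobenius_def, ← hn] at h
    set P : Polynomial k := Polynomial.X ^ Fintype.card K - Polynomial.X with hP
    have h1 : 1 < Fintype.card K := Fintype.one_lt_card
    have hP0 : P ≠ 0 := FiniteField.X_pow_card_sub_X_ne_zero k h1
    have hdeg : P.natDegree = Fintype.card K := FiniteField.X_pow_card_sub_X_natDegree_eq k h1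
    let S : Finset k := Finset.univ.map ⟨fun y : K => (y : k), Subtype.val_injective⟩
    have hS : S ⊆ P.roots.toFinset := by
      intro y hy
      obtain ⟨z, -, rfl⟩ := Finset.mem_map.1 hy
      rw [Multiset.mem_toFinset, Polynomial.mem_roots hP0]
      have hz : ((z : K) : k) ^ Fintype.card K = z := by
        have := congrArg (fun w : K => (w : k)) (FiniteField.pow_card z)
        simpa using this
      simp [hP, hz]
    have hcard : P.roots.toFinset.card ≤ S.card := by
      refine le_trans (Multiset.toFinset_card_le _) (le_trans (Polynomial.card_roots' P) ?_)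
      rw [hdeg, Finset.card_map, Finset.card_univ]
    have hx : x ∈ P.roots.toFinset := by
      rw [Multiset.mem_toFinset, Polynomial.mem_roots hP0]
      simp [hP, h]
    rw [← Finset.eq_of_subset_of_card_le hS hcard] at hx
    obtain ⟨z, -, rfl⟩ := Finset.mem_map.1 hx
    exact z.2
  · rw [iterateFrobenius_def, ← hn]
    have := congrArg (fun w : K => (w : k)) (FiniteField.pow_card (⟨x, h⟩ : K))
    simpa using this

theorem pow_card_eq_iff (K : Subfield k) [Finite K] (x : k) : x ^ Nat.card K = x ↔ x ∈ K := by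
  obtain ⟨φ, h1, h2⟩ := exists_frob (p := p) K
  rw [← h1]; exact h2 x

/-- The parameter of a root element with entries in a finite subfield lies in that subfield. -/
theorem mem_of_xg_entries {D : ChevalleyDatum} (G : Good D) (K : Subfield k) [Finite K] {r : ℕ}
    (hr : r < D.nroots) {t : k} (h : ∀ i j, (G.xg r t : Matrix D.Idx D.Idx k) i j ∈ K) : t ∈ K := by
  obtain ⟨φ, -, h2⟩ := exists_frob (p := p) K
  refine (h2 t).1 (G.xg_injective hr ?_)
  rw [← mapGL_xg G]
  refine Units.ext ?_
  rw [coe_mapGL]
  ext i j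
  rw [Matrix.map_apply]
  exact (h2 _).2 (h i j)

omit hp

theorem nroots_pos {D : ChevalleyDatum}
    (hD : D ∈ [chevG2, chevB2, chevD4, chevF4, chevE6, chevE7, chevE8]) : 0 < D.nroots := by
  simp only [List.mem_cons, List.not_mem_nil, or_false] at hD
  rcases hD with rfl | rfl | rfl | rfl | rfl | rfl | rfl <;> decide +kernel

/-- All elements of `M` are points over the parameter field. -/
def Rational {D : ChevalleyDatum} {G : Good D} (O : Over G k) : Prop :=
  ∃ K : Subfield k, Finite K ∧ (∀ r, r < D.nroots → ∀ t ∈ K, G.xg r t ∈ O.M) ∧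
    ∀ g ∈ O.M, ∀ i j : D.Idx, (g : Matrix D.Idx D.Idx k) i j ∈ K

include hp

theorem rational_of_forall {D : ChevalleyDatum} {G : Good D} {O : Over G k} (T : Ty G) (R : Rat O)
    (h : ∀ C : Core O, C.T = T → ∀ g ∈ O.M, g ∈ C.fx) : Rational O := by
  haveI := R.finK
  obtain ⟨φ, -, hφ⟩ := exists_frob (p := p) R.K
  exact ⟨R.K, R.finK, R.mem, fun g hg => Core.entry_mem ⟨T, R, φ, hφ⟩ (h ⟨T, R, φ, hφ⟩ rfl g hg)⟩

omit [CharP k p] in
theorem charTwo_of_eq [CharP k p] (h : p = 2) : CharP k 2 := h ▸ inferInstance

theorem rational_of_plane {D : ChevalleyDatum} {G : Good D} (O : Over G k) (T : Ty G) (X : Gen T)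
    (L : Line T) (P : Plane T) : Rational O := by
  refine rational_of_forall (p := p) T (X.rat (p := p) O) fun C hC g hg => ?_
  subst hC
  by_contra hn
  by_cases h2 : p = 2
  · haveI := charTwo_of_eq (k := k) h2
    haveI : Fact (Nat.Prime 2) := ⟨Nat.prime_two⟩
    obtain ⟨y, hy, c, hc, e⟩ := C.exists_opposite (p := 2) hg hn
    exact C.false_of_plane P hg hn hc hy e
  · exact C.false_odd_line h2 L hg hn

theorem rational_G2 (O : Over goodG2 k) : Rational O := by
  refine rational_of_forall (p := p) tyG2 (genG2.rat (p := p) O) fun C hC g hg => ?_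
  have L : { L : Line C.T // L.l = 10 } := hC ▸ ⟨lineG2, rfl⟩
  by_contra hn
  by_cases h2 : p = 2
  · haveI := charTwo_of_eq (k := k) h2
    exact false_two_G2 C L.1 L.2 hg hn
  · exact C.false_odd_line h2 L.1 hg hn

theorem rational_B2 (O : Over goodB2 k) : Rational O := by
  have hR : Nonempty (Rat O) := by
    by_cases h2 : p = 2
    · haveI := charTwo_of_eq (k := k) h2
      exact B2.rat_two O tyB2 rfl
    · exact B2.rat_odd O tyB2 rfl h2
  obtain ⟨R⟩ := hR
  refine rational_of_forall (p := p) tyB2 R fun C hC g hg => ?_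
  by_contra hn
  by_cases h2 : p = 2
  · haveI := charTwo_of_eq (k := k) h2
    exact false_two_B2 C hg hn
  · refine C.false_odd_orth h2 (r := 4) B2.pos4 ((long_iff 4).2 (by decide +kernel)) ?_ hg hn
    intro h
    have h74 : ¬ 0 < chevB2.pairing 7 4 := b2basic.2.2.2.2.1
    have := (C.T.heis_spec B2.pos4.1).1.2 ⟨B2.pos4, h⟩
    rw [b2basic.2.1] at this
    exact h74 this

/-- A finite group between the group of all `x_r(1)` and the Chevalley group consists of points over the finite
field of parameters of its root elements. -/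
theorem exists_rational {D : ChevalleyDatum}
    (hD : D ∈ [chevG2, chevB2, chevD4, chevF4, chevE6, chevE7, chevE8]) :
    ∃ G : Good D, ∀ O : Over G k, Rational O := by
  simp only [List.mem_cons, List.not_mem_nil, or_false] at hD
  rcases hD with rfl | rfl | rfl | rfl | rfl | rfl | rfl
  · exact ⟨goodG2, rational_G2 (p := p)⟩
  · exact ⟨goodB2, rational_B2 (p := p)⟩
  · exact ⟨goodD4, fun O => rational_of_plane (p := p) O tyD4 genD4 lineD4 planeD4⟩
  · exact ⟨goodF4, fun O => rational_of_plane (p := p) O tyF4 genF4 lineF4 planeF4⟩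
  · exact ⟨goodE6, fun O => rational_of_plane (p := p) O tyE6 genE6 lineE6 planeE6⟩
  · exact ⟨goodE7, fun O => rational_of_plane (p := p) O tyE7 genE7 lineE7 planeE7⟩
  · exact ⟨goodE8, fun O => rational_of_plane (p := p) O tyE8 genE8 lineE8 planeE8⟩

end Cfsg.Agent.H64.Subfield
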