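import Cfsg.Agent.H64.Subfield.Line

/-!
# Odd characteristic
-/

set_option autoImplicit false

namespace Cfsg.Agent.H64.Subfield

open Cfsg.Lie Cfsg.Agent.H46 Cfsg.Agent.H65
open scoped Matrix MatrixGroups

variable {D : ChevalleyDatum} {G : Good D} {k : Type*} [Field k]

variable (G) in
include G in
theorem ordProd_hi (h0 : 0 < D.nroots) (t : ℕ → k) : ∀ m, m ≤ hi D →
    G.ordProd m t = G.ordProd m (Function.update t (hi D) 0) * G.xg (hi D) (t (hi D)) := by
  intro m
  induction m using Nat.strongRecMeasure (f := fun m => D.nroots - m) with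
  | _ m ih =>
    intro hm
    have hh : hi D = D.nroots - 1 := rfl
    rw [G.ordProd_succ (k := m) (t := t) (by omega), G.ordProd_succ (k := m) (t := Function.update t (hi D) 0) (by omega)]
    rcases eq_or_lt_of_le hm with rfl | hlt
    · rw [G.ordProd_of_le (k := hi D + 1) (by omega), G.ordProd_of_le (k := hi D + 1) (by omega), mul_one, mul_one,
        Function.update_self, G.xg_zero, one_mul]
    · rw [ih (m + 1) (by omega) (by omega), Function.update_of_ne hlt.ne, mul_assoc]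

namespace Core

variable {O : Over G k} (C : Core O) {p : ℕ} [hp : Fact p.Prime] [CharP k p]

include C

omit hp in
theorem sl_neg_one : C.T.sl (-1 : SL(2, k)) = G.hg (hi D) (-1) := by
  show G.slMap (hi D) (-1 : SL(2, k)) = _
  rw [G.slMap_pos (by simp)]
  simp [G.xg_zero]

include hp

/-- An element of the radical commuting with the central involution lies in the highest root group. -/
theorem rad_commute_J (hp2 : p ≠ 2) :
    ∀ m, D.nroots / 2 ≤ m → ∀ w ∈ C.T.rad k m, Commute (G.hg (hi D) (-1 : k)) w →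
      ∃ t, w = G.xg (hi D) t := by
  have h2 : (2 : k) ≠ 0 := fun e => hp2 ((Nat.prime_dvd_prime_iff_eq hp.out Nat.prime_two).1
    ((CharP.cast_eq_zero_iff k p 2).1 (by exact_mod_cast e)))
  intro m
  induction m using Nat.strongRecMeasure (f := fun m => D.nroots - m) with
  | _ m ih =>
    intro hm w hw hc
    by_cases hmn : D.nroots ≤ m
    · have h := C.T.rad_le_up m hw
      rw [up_eq_bot G hmn, Subgroup.mem_bot] at h
      exact ⟨0, by rw [h, G.xg_zero]⟩
    have hp' : D.IsPosRoot m := G.isPosRoot_iff.2 ⟨hm, not_le.1 hmn⟩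
    by_cases hmh : m = hi D
    · obtain ⟨t, w1, hw1, rfl⟩ := exists_lead G hp' (C.T.rad_le_up m hw)
      rw [up_eq_bot G (by simp only [hmh, hi]; omega), Subgroup.mem_bot] at hw1
      exact ⟨t, by rw [hw1, mul_one, hmh]⟩
    by_cases hset : m ∈ C.T.hset
    · obtain ⟨t, w1, hw1, rfl⟩ := exists_lead G hp' (C.T.rad_le_up m hw)
      have hJd : G.hg (hi D) (-1 : k) ∈ D.borelSubgroup k :=
        Subgroup.mem_sup_right (G.hg_mem_diagonal C.T.hpos.1 (by simp))
      have hpair : D.pairing (hi D) m = 1 := (C.T.heis_spec hp'.1).2.2.2.1 hp' hmh hset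
      have e1 := G.hg_mul_xg (F := k) C.T.hpos.1 hp'.1 (c := -1) (by simp) t
      rw [hpair, zpow_one, neg_one_mul] at e1
      set J := G.hg (hi D) (-1 : k)
      have e2 : G.xg m t * w1 = G.xg m (-t) * (J * w1 * J⁻¹) := by
        calc G.xg m t * w1 = J * (G.xg m t * w1) * J⁻¹ := by rw [hc.eq, mul_inv_cancel_right]
          _ = (J * G.xg m t) * w1 * J⁻¹ := by group
          _ = _ := by rw [e1]; group
      have e3 : G.xg m (t + t) ∈ up G k (m + 1) := by
        have : G.xg m (t + t) = J * w1 * J⁻¹ * w1⁻¹ := by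
          rw [← G.xg_add, eq_mul_inv_iff_mul_eq, mul_assoc, e2, ← mul_assoc, G.xg_add, add_neg_cancel,
            G.xg_zero, one_mul]
        rw [this]
        exact mul_mem (conj_mem_up G hJd hw1) (inv_mem hw1)
      have ht : t = 0 := by
        have h4 := xg_mem_up_succ G hp' e3
        rw [← two_mul] at h4
        exact (mul_eq_zero.1 h4).resolve_left h2
      subst ht
      rw [G.xg_zero, one_mul] at hw hc ⊢
      refine ih (m + 1) (by omega) (by omega) w1 ?_ hc
      have h : w1 ∈ G.posSub (F := k) (C.T.hset ∩ Set.Ici m ∩ Set.Ici (m + 1)) := by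
        rw [← G.posSub_inf (C.T.posClosed_hset _) (posClosed_Ici G _)]
        exact Subgroup.mem_inf.2 ⟨hw, hw1⟩
      exact G.posSub_mono (S := C.T.hset ∩ Set.Ici m ∩ Set.Ici (m + 1)) (T := C.T.hset ∩ Set.Ici (m + 1))
        (fun s _ hs => ⟨hs.1.1, hs.2⟩) h
    · refine ih (m + 1) (by omega) (by omega) w ?_ hc
      refine G.posSub_mono (S := C.T.hset ∩ Set.Ici m) (T := C.T.hset ∩ Set.Ici (m + 1)) (fun s _ hs => ?_) hw
      refine ⟨hs.1, ?_⟩
      rcases eq_or_lt_of_le (Set.mem_Ici.1 hs.2) with h | h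
      · exact absurd (h ▸ hs.1) hset
      · exact h

/-- In odd characteristic the conjugator can be taken in the highest root group. -/
theorem exists_central (hp2 : p ≠ 2) {g : GL D.Idx k} (hg : g ∈ O.M) (hn : g ∉ C.fx) :
    ∃ g1 ∈ O.M, g1 ∉ C.fx ∧ ∃ s c : k, c ≠ 0 ∧
      g1 * G.xg (hi D) 1 * g1⁻¹ = G.xg (hi D) s * G.xg 0 c * (G.xg (hi D) s)⁻¹ := by
  haveI := O.finM
  obtain ⟨y, hy, c, hc, e⟩ := C.exists_opposite (p := p) hg hn
  have hyU : y ∈ D.posUnipotent k := C.T.rad_le _ hy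
  have hz'M : y * G.xg 0 c * y⁻¹ ∈ O.M :=
    e ▸ mul_mem (mul_mem hg (O.one_mem _ C.T.hpos.1)) (inv_mem hg)
  have hzy : y * G.xg (hi D) 1 * y⁻¹ = G.xg (hi D) 1 := by
    rw [← (C.T.hi_central 1 hyU).eq, mul_inv_cancel_right]
  let f : SL(2, k) →* GL D.Idx k := (MulAut.conj y).toMonoidHom.comp C.T.sl
  have hf : ∀ A, f A = y * C.T.sl A * y⁻¹ := fun A => rfl
  have hX : f (slX 1) ∈ O.M := by rw [hf, C.T.sl_X, hzy]; exact O.one_mem _ C.T.hpos.1
  have hY : f (slY c) ∈ O.M := by rw [hf, C.T.sl_Y]; exact hz'M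
  have hle : Subgroup.closure ({slX 1, slY c} : Set SL(2, k)) ≤ O.M.comap f := by
    refine (Subgroup.closure_le _).2 ?_
    rintro g (rfl | rfl)
    · exact hX
    · exact hY
  have hfin : IsOfFinOrder (slX (1 : k) * slY c) := by
    refine C.T.sl_isOfFinOrder ?_
    have h4 : IsOfFinOrder (f (slX (1 : k) * slY c)) :=
      Submonoid.isOfFinOrder_coe.2 (isOfFinOrder_of_finite (⟨_, map_mul f (slX 1) (slY c) ▸ mul_mem hX hY⟩ : O.M))
    obtain ⟨n, hn, e⟩ := isOfFinOrder_iff_pow_eq_one.1 h4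
    refine isOfFinOrder_iff_pow_eq_one.2 ⟨n, hn, ?_⟩
    rw [hf, conj_pow, conj_eq_one_iff] at e
    exact e
  have hjM : y * C.T.sl (-1 : SL(2, k)) * y⁻¹ ∈ O.M := hle (neg_one_mem_closure (p := p) hp2 hc hfin)
  rw [C.sl_neg_one] at hjM
  set J := G.hg (hi D) (-1 : k) with hJ
  have hJh : Commute J (G.xg (hi D) (1 : k)) := by
    show J * G.xg (hi D) 1 = G.xg (hi D) 1 * J
    rw [hJ, G.hg_mul_xg C.T.hpos.1 C.T.hpos.1 (by simp), C.T.pairing_hi]
    norm_num
  have hjf : y * J * y⁻¹ ∈ C.fx := by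
    refine C.fixed_of_hi hjM one_ne_zero (e' := (1 : k)) ?_
    have hyz : Commute (G.xg (hi D) (1 : k)) y := C.T.hi_central 1 hyU
    have hcm : Commute (y * J * y⁻¹) (G.xg (hi D) (1 : k)) :=
      (hyz.symm.mul_left hJh).mul_left hyz.symm.inv_left
    rw [hcm.eq, mul_inv_cancel_right]
  have hw : Commute J (y⁻¹ * mapGL D C.φ y) := by
    have h := C.mem_fx.1 hjf
    rw [map_mul, map_mul, map_inv, hJ, mapGL_hg G, map_neg, map_one, ← hJ] at h
    show J * (y⁻¹ * mapGL D C.φ y) = y⁻¹ * mapGL D C.φ y * J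
    calc J * (y⁻¹ * mapGL D C.φ y) = y⁻¹ * (y * J * y⁻¹) * mapGL D C.φ y := by group
      _ = y⁻¹ * (mapGL D C.φ y * J * (mapGL D C.φ y)⁻¹) * mapGL D C.φ y := by rw [h]
      _ = _ := by group
  obtain ⟨t0, ht0⟩ := C.rad_commute_J hp2 _ le_rfl (y⁻¹ * mapGL D C.φ y)
    (mul_mem (inv_mem hy) (mapGL_posSub G C.φ hy)) hw
  rw [inv_mul_eq_iff_eq_mul] at ht0
  have hyU' := hyU
  rw [G.posUnipotent_eq] at hyU'
  obtain ⟨t, ⟨-, rfl⟩, -⟩ := G.posSub_normal_form G.posClosed_univ hyU'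
  have h0 := C.T.nroots_pos
  have hmh : D.nroots / 2 ≤ hi D := (G.isPosRoot_iff.1 C.T.hpos).1
  set t' := Function.update t (hi D) 0 with ht'
  set y0 := G.ordProd (D.nroots / 2) t' with hy0
  have ey : G.ordProd (D.nroots / 2) t = y0 * G.xg (hi D) (t (hi D)) := ordProd_hi G h0 t _ hmh
  have hy0U : y0 ∈ D.posUnipotent k := by
    have : y0 = G.ordProd (D.nroots / 2) t * (G.xg (hi D) (t (hi D)))⁻¹ := by rw [ey, mul_inv_cancel_right]
    rw [this]
    exact mul_mem hyU (inv_mem (C.T.xg_hi_mem_pos _))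
  have hy0f : y0 ∈ C.fx := by
    rw [C.mem_fx, hy0, mapGL_ordProd G]
    refine G.ordProd_congr fun r hr hrn => ?_
    by_cases hrh : r = hi D
    · simp [ht', hrh]
    rw [mapGL_ordProd G] at ht0
    set u := Function.update t (hi D) (t (hi D) + t0) with hu
    have e1 : G.ordProd (D.nroots / 2) t * G.xg (hi D) t0 = G.ordProd (D.nroots / 2) u := by
      rw [ey, mul_assoc, G.xg_add, ordProd_hi G h0 u _ hmh, hu, Function.update_idem, Function.update_self]
    rw [e1] at ht0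
    have := G.ordProd_injective _ le_rfl _ _ ht0 r hr hrn
    simpa [ht', hu, Function.update_of_ne hrh] using this
  have hy0H : y0 ∈ C.H := C.mem_H (C.pos_mem_M hy0U hy0f) hy0f
  refine ⟨y0⁻¹ * g, mul_mem (inv_mem (C.memM hy0H)) hg,
    fun h => hn ((C.fx.mul_mem_cancel_left (inv_mem (C.memF hy0H))).1 h), t (hi D), c, hc, ?_⟩
  rw [show y0⁻¹ * g * G.xg (hi D) 1 * (y0⁻¹ * g)⁻¹ = y0⁻¹ * (g * G.xg (hi D) 1 * g⁻¹) * y0 by group, e, ey]
  group

/-- Odd characteristic with a line root. -/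
theorem false_odd_line (hp2 : p ≠ 2) (L : Line C.T) {g : GL D.Idx k} (hg : g ∈ O.M) (hn : g ∉ C.fx) : False := by
  obtain ⟨g1, hg1, hn1, s, c, -, e⟩ := C.exists_central hp2 hg hn
  refine C.false_of_line (p := p) L hg1 hn1
    (C.T.xg_mem_rad C.T.hpos C.T.hi_mem_hset (G.isPosRoot_iff.1 C.T.hpos).1 s) e (ξ := 0) ?_ C.R.K.zero_mem
  rw [G.xg_zero, mul_one, mul_assoc, (C.T.hi_central s (G.xg_mem_pos L.pos 1)).symm.eq, inv_mul_cancel_left]

/-- Odd characteristic with a long root orthogonal to the highest root. -/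
theorem false_odd_orth (hp2 : p ≠ 2) {r : ℕ} (hr : D.IsPosRoot r) (hl : Long D r) (hm : r ∉ C.T.hset)
    {g : GL D.Idx k} (hg : g ∈ O.M) (hn : g ∉ C.fx) : False := by
  obtain ⟨g1, hg1, hn1, s, c, -, e⟩ := C.exists_central hp2 hg hn
  have hz'M : g1 * G.xg (hi D) 1 * g1⁻¹ ∈ O.M := mul_mem (mul_mem hg1 (O.one_mem _ C.T.hpos.1)) (inv_mem hg1)
  have hc : Commute (g1 * G.xg (hi D) 1 * g1⁻¹) (1 * G.xg r 1 * 1⁻¹) := by
    rw [e, one_mul, inv_one, mul_one]
    have h1 : Commute (G.xg (hi D) s) (G.xg r (1 : k)) := C.T.hi_central s (G.xg_mem_pos hr 1)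
    exact (h1.mul_left (C.T.commute_zero hr hm 1 c).symm).mul_left h1.inv_left
  have hf := C.fixed_of_commute_long hr hl one_ne_zero (v := 1) (one_mem _)
    (by rw [one_mul, inv_one, mul_one]; exact O.one_mem r hr.1) hz'M hc
  exact hn1 (C.fixed_of_conj_fixed (p := p) hg1 one_ne_zero C.R.K.one_mem hf)

end Core

end Cfsg.Agent.H64.Subfield
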